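import Cfsg.Agent.H430.CfBase

/-!
# Rows from `|Out S| ≤ 2`
-/

set_option autoImplicit false

namespace Cfsg.Agent.H430.CfBase

universe u v

theorem Row.of_card_out_one {S : Type u} [Group S] {T : Type v} [Group T] [Nontrivial T] (e : Nonempty (S ≃* T))
    (h : Nat.card (Cfsg.Out T) = 1) : Row S := by
  refine Row.of_nonempty e (Row.of_inner ?_)
  exact Subgroup.index_eq_one.1 h

theorem Row.of_card_out_two {S : Type u} [Group S] {T : Type v} [Group T] [Finite T] [Nontrivial T]
    (e : Nonempty (S ≃* T)) (h : Nat.card (Cfsg.Out T) = 2) (β : MulAut T) (hβ : ∀ k : T, β ≠ MulAut.conj k)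
    (hβ2 : β * β = 1) : Row S := by
  refine Row.of_nonempty e (Row.of_index_two h β ?_ hβ2)
  rintro ⟨k, hk⟩
  exact hβ k hk.symm

/-- from an equation for all elements -/
theorem mul_self_eq_one {T : Type v} [Group T] (β : MulAut T) (h : ∀ x, β (β x) = x) : β * β = 1 := by
  ext x
  exact h x

end Cfsg.Agent.H430.CfBase
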