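import Cfsg.Agent.H69.OutGF
import Cfsg.Agent.H430.CfOut

/-!
# Rows: `G2(3)` and `F4(2)` (graph involutions)
-/

set_option autoImplicit false

namespace Cfsg.Agent.H430.CfGraph

open scoped Pointwise
open Cfsg Cfsg.Lie Cfsg.Agent.ChevalleyStructure Cfsg.Agent.ChevalleyStructure.Elts
  Cfsg.Agent.ChevalleyStructure.NConj Cfsg.Agent.ChevalleyStructure.BNChev Cfsg.Agent.S1042
  Cfsg.Agent.Schreier.ChevLocal Cfsg.Agent.H70.PermFix Cfsg.Agent.H70.ChevDiag
  Cfsg.Agent.H70.AutFix Cfsg.Agent.H70.ChevTab Cfsg.Agent.H70.ChevFix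
  Cfsg.Agent.H70.ChevField Cfsg.Agent.H70.OutCount Cfsg.Agent.H69.OutGF Cfsg.Agent.H430.CfBase

universe u

theorem perm_one_of_inner {D : ChevalleyDatum} (hD : InList D) {F : Type u} [Field F] [Finite F] {k : ↥(D.group F)}
    {π : Equiv.Perm (Fin D.rank)} (h : Perm D F (MulAut.conj k) π) : π = 1 := by
  have h1 : k ∈ HH D F := by
    rw [← normalizer_inf hD, Subgroup.mem_inf, mem_normalizer_iff_smul, mem_normalizer_iff_smul]
    exact ⟨Perm.smul_UU hD h, Perm.smul_VN hD h⟩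
  have h2 : Perm D F (MulAut.conj k) 1 :=
    ⟨fun i => conj_XX hD h1 (simple_lt hD i.2), fun i => conj_XX hD h1 (neg_simple_lt hD i.2)⟩
  exact Perm.unique hD h h2

theorem nontrivial_group {D : ChevalleyDatum} (hD : InList D) {F : Type u} [Field F] : Nontrivial ↥(D.group F) := by
  refine ⟨⟨xe hD (D.simple 0) 1, xe hD (D.simple 0) 0, fun h => ?_⟩⟩
  exact one_ne_zero (xe_inj hD (simple_lt hD (RootComb.good_of_mem hD).rank_pos) h)

/-- The general form. -/
theorem row_of_graph {D : ChevalleyDatum} (hD : InList D) {F : Type u} [Field F] [Finite F]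
    (hout : Nat.card (Cfsg.Out ↥(D.group F)) = 2) {β : MulAut ↥(D.group F)} {π : Equiv.Perm (Fin D.rank)}
    (hβ : Perm D F β π) (hπ : π ≠ 1) (hβ2 : β * β = 1) : Row ↥(D.group F) := by
  have : Finite (GL D.Idx F) := inferInstance
  have : Nontrivial ↥(D.group F) := nontrivial_group hD
  refine Row.of_card_out_two ⟨MulEquiv.refl _⟩ hout β (fun k hk => hπ ?_) hβ2
  rw [hk] at hβ
  exact perm_one_of_inner hD hβ

section G2

variable {F : Type u} [Field F]

theorem exists_graph_G2 [Finite F] [CharP F 3] (ht : ∀ t : F, t ^ 3 = t) :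
    ∃ β : MulAut ↥(chevG2.group F), Perm chevG2 F β flip2 ∧ β * β = 1 := by
  have : Fact (Nat.Prime 3) := ⟨Nat.prime_three⟩
  obtain ⟨α, hα⟩ := Cfsg.Agent.S1099.result (K := F) (hperf 3)
  have h0 : (flip2 (0 : Fin 2) : ℕ) = 1 := rfl
  have h1 : (flip2 (1 : Fin 2) : ℕ) = 0 := rfl
  obtain ⟨t0, t1, t2, t3⟩ := tab_G2
  have ha : ∀ t, α (xe hG2 7 t) = xe hG2 6 (t ^ 3) := fun t =>
    eq_xe hG2 ((hα (xe hG2 7 t) t).1 (coe_coe_xe hG2 7 t))
  have hb : ∀ t, α (xe hG2 6 t) = xe hG2 7 t := fun t =>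
    eq_xe hG2 ((hα (xe hG2 6 t) t).2.1 (coe_coe_xe hG2 6 t))
  have hma : ∀ t, α (xe hG2 4 t) = xe hG2 5 (t ^ 3) := fun t =>
    eq_xe hG2 ((hα (xe hG2 4 t) t).2.2.1 (coe_coe_xe hG2 4 t))
  have hmb : ∀ t, α (xe hG2 5 t) = xe hG2 4 t := fun t =>
    eq_xe hG2 ((hα (xe hG2 5 t) t).2.2.2 (coe_coe_xe hG2 5 t))
  have hcube : Function.Surjective (fun t : F => t ^ 3) := hperf 3
  have hcases : ∀ i : Fin chevG2.rank, i = (0 : Fin 2) ∨ i = (1 : Fin 2) := by
    have : ∀ j : Fin 2, j = 0 ∨ j = 1 := by decide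
    exact this
  refine ⟨α, ⟨fun i => ?_, fun i => ?_⟩, ?_⟩
  · rcases hcases i with rfl | rfl
    · rw [h0]
      show α • XX chevG2 F (chevG2.simple 0) = _
      rw [t0, t1]
      exact smul_XX hG2 (φ := α) hcube ha
    · rw [h1]
      show α • XX chevG2 F (chevG2.simple 1) = _
      rw [t0, t1]
      exact smul_XX hG2 (φ := α) (f := id) Function.surjective_id hb
  · rcases hcases i with rfl | rfl
    · rw [h0]
      show α • XX chevG2 F (chevG2.neg (chevG2.simple 0)) = _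
      rw [t0, t1, t2, t3]
      exact smul_XX hG2 (φ := α) hcube hma
    · rw [h1]
      show α • XX chevG2 F (chevG2.neg (chevG2.simple 1)) = _
      rw [t0, t1, t2, t3]
      exact smul_XX hG2 (φ := α) (f := id) Function.surjective_id hmb
  · apply ext_values hG2
    · intro i t
      rcases hcases i with rfl | rfl
      · show α (α (xe hG2 (chevG2.simple 0) t)) = xe hG2 (chevG2.simple 0) t
        rw [t0, ha, hb, ht]
      · show α (α (xe hG2 (chevG2.simple 1) t)) = xe hG2 (chevG2.simple 1) t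
        rw [t1, hb, ha, ht]
    · intro i t
      rcases hcases i with rfl | rfl
      · show α (α (xe hG2 (chevG2.neg (chevG2.simple 0)) t)) = xe hG2 (chevG2.neg (chevG2.simple 0)) t
        rw [t0, t2, hma, hmb, ht]
      · show α (α (xe hG2 (chevG2.neg (chevG2.simple 1)) t)) = xe hG2 (chevG2.neg (chevG2.simple 1)) t
        rw [t1, t3, hmb, hma, ht]

theorem charP_of_card {p : ℕ} [Fact p.Prime] [Fintype F] (h : Fintype.card F = p) : CharP F p := by
  have h1 : ((p : ℕ) : F) = 0 := by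
    have := FiniteField.cast_card_eq_zero F
    rwa [h] at this
  obtain ⟨r, hr⟩ := CharP.exists F
  have h2 : r ∣ p := (CharP.cast_eq_zero_iff F r p).1 h1
  rcases (Nat.dvd_prime Fact.out).1 h2 with h3 | h3
  · exact absurd h3 (CharP.char_ne_one F r)
  · rwa [← h3]

theorem row_G2_three [Finite F] (hF : Nat.card F = 3) : Row ↥(chevG2.group F) := by
  have : Fintype F := Fintype.ofFinite F
  have : Fact (Nat.Prime 3) := ⟨Nat.prime_three⟩
  have hF' : Fintype.card F = 3 := by rw [← Nat.card_eq_fintype_card, hF]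
  have : CharP F 3 := charP_of_card hF'
  have ht : ∀ t : F, t ^ 3 = t := by
    intro t
    have := FiniteField.pow_card t
    rwa [hF'] at this
  obtain ⟨β, h1, h2⟩ := exists_graph_G2 ht
  refine row_of_graph hG2 ?_ h1 flip2_ne h2
  rw [card_out_G2 (by omega), card_two flip2_ne (fun x _ => perm2 x) flip2_mem,
    Cfsg.Agent.Lib.FieldAutCard.card_ringAut (p := 3) (f := 1) le_rfl (by rw [hF', pow_one])]

end G2

section F4

variable {F : Type u} [Field F]

theorem flip4_invol (i : ℕ) (hi : i < 4) : ([(3, 2), (2, 2), (1, 1), (0, 1)].getD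
    ([(3, 2), (2, 2), (1, 1), (0, 1)].getD i (0, 1)).1 (0, 1)).1 = i ∧
    ([(3, 2), (2, 2), (1, 1), (0, 1)].getD i (0, 1)).1 < 4 := by
  interval_cases i <;> simp

theorem exists_graph_F4 [Finite F] [CharP F 2] (ht : ∀ t : F, t ^ 2 = t) :
    ∃ β : MulAut ↥(chevF4.group F), Perm chevF4 F β flip4 ∧ β * β = 1 := by
  have : Fact (Nat.Prime 2) := ⟨Nat.prime_two⟩
  obtain ⟨α, hα⟩ := Cfsg.Agent.S1098.result (K := F) (hperf 2) (chevF4, [(3, 2), (2, 2), (1, 1), (0, 1)]) (by simp)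
  have hpow : ∀ (i : ℕ) (t : F), i < 4 → t ^ ([(3, 2), (2, 2), (1, 1), (0, 1)].getD i (0, 1)).2 = t := by
    intro i t hi
    have h1 : ([(3, 2), (2, 2), (1, 1), (0, 1)].getD (i : ℕ) (0, 1)).2 = 1 ∨
        ([(3, 2), (2, 2), (1, 1), (0, 1)].getD (i : ℕ) (0, 1)).2 = 2 := by
      interval_cases i <;> simp
    rcases h1 with h1 | h1
    · rw [h1, pow_one]
    · rw [h1, ht]
  have hp : ∀ (i : ℕ) (t : F), i < 4 → α (xe hF4 (chevF4.simple i) t) =
      xe hF4 (chevF4.simple ([(3, 2), (2, 2), (1, 1), (0, 1)].getD i (0, 1)).1) t := by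
    intro i t hi
    refine eq_xe hF4 ?_
    have := (hα (xe hF4 (chevF4.simple i) t) i t hi).1 (coe_coe_xe hF4 _ t)
    rw [hpow i t hi] at this
    exact this
  have hn : ∀ (i : ℕ) (t : F), i < 4 → α (xe hF4 (chevF4.neg (chevF4.simple i)) t) =
      xe hF4 (chevF4.neg (chevF4.simple ([(3, 2), (2, 2), (1, 1), (0, 1)].getD i (0, 1)).1)) t := by
    intro i t hi
    refine eq_xe hF4 ?_
    have := (hα (xe hF4 (chevF4.neg (chevF4.simple i)) t) i t hi).2 (coe_coe_xe hF4 _ t)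
    rw [hpow i t hi] at this
    exact this
  refine ⟨α, ⟨fun i => ?_, fun i => ?_⟩, ?_⟩
  · have e : ((flip4 i : Fin chevF4.rank) : ℕ) = ([(3, 2), (2, 2), (1, 1), (0, 1)].getD (i : ℕ) (0, 1)).1 := flip_vals i
    rw [e]
    exact smul_XX hF4 (φ := α) (f := id) Function.surjective_id fun t => hp i t i.2
  · have e : ((flip4 i : Fin chevF4.rank) : ℕ) = ([(3, 2), (2, 2), (1, 1), (0, 1)].getD (i : ℕ) (0, 1)).1 := flip_vals i
    rw [e]
    exact smul_XX hF4 (φ := α) (f := id) Function.surjective_id fun t => hn i t i.2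
  · apply ext_values hF4
    · intro i t
      show α (α (xe hF4 (chevF4.simple i) t)) = xe hF4 (chevF4.simple i) t
      rw [hp i t i.2, hp _ t (flip4_invol i i.2).2, (flip4_invol i i.2).1]
    · intro i t
      show α (α (xe hF4 (chevF4.neg (chevF4.simple i)) t)) = xe hF4 (chevF4.neg (chevF4.simple i)) t
      rw [hn i t i.2, hn _ t (flip4_invol i i.2).2, (flip4_invol i i.2).1]

theorem row_F4_two [Finite F] (hF : Nat.card F = 2) : Row ↥(chevF4.group F) := by
  have : Fintype F := Fintype.ofFinite F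
  have : Fact (Nat.Prime 2) := ⟨Nat.prime_two⟩
  have hF' : Fintype.card F = 2 := by rw [← Nat.card_eq_fintype_card, hF]
  have : CharP F 2 := charP_of_card hF'
  have ht : ∀ t : F, t ^ 2 = t := by
    intro t
    have := FiniteField.pow_card t
    rwa [hF'] at this
  obtain ⟨β, h1, h2⟩ := exists_graph_F4 ht
  refine row_of_graph hF4 ?_ h1 flip4_ne h2
  rw [card_out_F4, card_two flip4_ne (fun x hx => realised_F4 hx) flip4_mem,
    Cfsg.Agent.Lib.FieldAutCard.card_ringAut (p := 2) (f := 1) le_rfl (by rw [hF', pow_one])]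

end F4

end Cfsg.Agent.H430.CfGraph
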