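import Cfsg.Agent.H430.CfChevTab
import Cfsg.Agent.H430.CfOut
import Cfsg.Agent.H934.HeisE6
import Cfsg.Agent.H934.HeisE7
import Cfsg.Agent.H934.HeisE8
import Cfsg.Agent.H934.HeisD4
import Cfsg.Agent.H934.HeisF4G2
import Cfsg.Agent.S1054
import Cfsg.Agent.S1055
import Cfsg.Agent.S1082
import Cfsg.Prelude.Def_LieChev

/-!
# Rows: `E6`, `E7`, `E8`, `D4`, `F4` (odd), `G2` (not characteristic 3)
-/

set_option autoImplicit false

namespace Cfsg.Agent.H430.CfRowChev

open Cfsg Cfsg.Lie Cfsg.Agent.H430.CfBase Cfsg.Agent.H430.CfChev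

universe u

theorem simple_of_mem {F : Type u} [Field F] (D : ChevalleyDatum) (hD : D ∈ [chevD4, chevF4, chevE6, chevE7, chevE8]) :
    IsSimpleGroup ↥(D.group F) := (Cfsg.Agent.S1054.result D hD).1

theorem row_E6 {S : Type u} [Group S] (h : Lie.IsoChevE6 S) : Row S := by
  obtain ⟨F, _, _, e⟩ := h
  have hs : IsSimpleGroup ↥(chevE6.group F) := simple_of_mem chevE6 (by simp)
  refine Row.of_nonempty e (Row.of_hasInv hasInvE6 fun L hL => ?_)
  have h1 := Cfsg.Agent.H934.HeisE6.sq_le hs L hL
  have h2 : 1 < Fintype.card F := Fintype.one_lt_card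
  rw [Nat.card_eq_fintype_card]
  refine le_trans ?_ h1
  rw [pow_succ (Fintype.card F) 21]
  nlinarith [pow_pos (show 0 < Fintype.card F by omega) 21]

theorem row_E7 {S : Type u} [Group S] (h : Lie.IsoE7 S) : Row S := by
  obtain ⟨F, _, _, e⟩ := h
  have hs : IsSimpleGroup ↥(chevE7.group F) := simple_of_mem chevE7 (by simp)
  refine Row.of_nonempty e (Row.of_hasInv hasInvE7 fun L hL => ?_)
  have h1 := Cfsg.Agent.H934.HeisE7.sq_le hs L hL
  have h2 : 1 < Fintype.card F := Fintype.one_lt_card
  rw [Nat.card_eq_fintype_card]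
  refine le_trans ?_ h1
  rw [pow_succ (Fintype.card F) 33]
  nlinarith [pow_pos (show 0 < Fintype.card F by omega) 33]

theorem row_E8 {S : Type u} [Group S] (h : Lie.IsoE8 S) : Row S := by
  obtain ⟨F, _, _, e⟩ := h
  have hs : IsSimpleGroup ↥(chevE8.group F) := simple_of_mem chevE8 (by simp)
  refine Row.of_nonempty e (Row.of_hasInv hasInvE8 fun L hL => ?_)
  have h1 := Cfsg.Agent.H934.HeisE8.sq_le hs L hL
  have h2 : 1 < Fintype.card F := Fintype.one_lt_card
  rw [Nat.card_eq_fintype_card]
  refine le_trans ?_ h1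
  rw [pow_succ (Fintype.card F) 57]
  nlinarith [pow_pos (show 0 < Fintype.card F by omega) 57]

theorem row_D4 {F : Type u} [Field F] [Finite F] : Row (Cfsg.POmega F (Cfsg.quadFormPlus 4 F)) := by
  have : Fintype F := Fintype.ofFinite F
  obtain ⟨e⟩ := Cfsg.Agent.S1082.result (F := F)
  have hs : IsSimpleGroup ↥(chevD4.group F) := simple_of_mem chevD4 (by simp)
  have hs' : IsSimpleGroup (Cfsg.POmega F (Cfsg.quadFormPlus 4 F)) := e.isSimpleGroup_congr.1 hs
  refine Row.of_equiv e (Row.of_hasInv hasInvD4 fun L hL => ?_)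
  have h1 := Cfsg.Agent.H934.HeisD4.four_le hs' (L.map e.toMonoidHom) (by
    intro h0
    apply hL
    rw [eq_top_iff]
    intro x _
    have : e x ∈ L.map e.toMonoidHom := by rw [h0]; exact Subgroup.mem_top _
    obtain ⟨y, hy, hyx⟩ := this
    rwa [← e.injective hyx])
  rw [show (L.map e.toMonoidHom).index = L.index from Subgroup.index_map_equiv L e] at h1
  have h2 : 1 < Fintype.card F := Fintype.one_lt_card
  rw [Nat.card_eq_fintype_card]
  refine le_trans ?_ h1
  rw [pow_succ (Fintype.card F) 9]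
  nlinarith [pow_pos (show 0 < Fintype.card F by omega) 9]

theorem row_F4_odd {F : Type u} [Field F] [Finite F] (h2 : (2 : F) ≠ 0) : Row ↥(chevF4.group F) := by
  have : Fintype F := Fintype.ofFinite F
  have hs : IsSimpleGroup ↥(chevF4.group F) := simple_of_mem chevF4 (by simp)
  refine Row.of_hasInv (hasInvF4 h2) fun L hL => ?_
  have h1 := Cfsg.Agent.H934.HeisF4G2.sq_le_F4 h2 hs L hL
  have h3 : 3 ≤ Fintype.card F := by
    by_contra hlt
    have h4 : 1 < Fintype.card F := Fintype.one_lt_card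
    have h5 : Fintype.card F = 2 := by omega
    apply h2
    have h6 := FiniteField.cast_card_eq_zero F
    rw [h5] at h6
    exact_mod_cast h6
  rw [Nat.card_eq_fintype_card]
  refine le_trans ?_ h1
  rw [pow_succ (Fintype.card F) 15]
  nlinarith [pow_pos (show 0 < Fintype.card F by omega) 15]

theorem row_G2_ne {F : Type u} [Field F] [Finite F] (h3 : (3 : F) ≠ 0) (hq : 3 ≤ Nat.card F) :
    Row ↥(chevG2.group F) := by
  have : Fintype F := Fintype.ofFinite F
  have hs : IsSimpleGroup ↥(chevG2.group F) := by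
    refine (Cfsg.Agent.S1055.result (F := F) ?_).1
    by_contra hno
    push Not at hno
    have h1 : Nat.card F ≤ 2 := by
      rw [Nat.card_eq_fintype_card]
      classical
      have h2 : (Finset.univ : Finset F) ⊆ {0, 1} := by
        intro a _
        by_cases ha : a = 0
        · simp [ha]
        · simp [hno a ha]
      calc Fintype.card F = (Finset.univ : Finset F).card := rfl
        _ ≤ ({0, 1} : Finset F).card := Finset.card_le_card h2
        _ ≤ 2 := Finset.card_le_two
    omega
  refine Row.of_hasInv (hasInvG2 h3) fun L hL => ?_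
  have h1 := Cfsg.Agent.H934.HeisF4G2.sq_le_G2 h3 hs L hL
  rw [Nat.card_eq_fintype_card] at *
  refine le_trans ?_ h1
  rw [pow_succ (Fintype.card F) 5]
  nlinarith [pow_pos (show 0 < Fintype.card F by omega) 5]

end Cfsg.Agent.H430.CfRowChev
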