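import Cfsg.Agent.H430.CfPair
import Cfsg.Agent.H430.CfRowChev
import Cfsg.Agent.H430.CfGraph
import Cfsg.Agent.H934.HeisF4Even

/-!
# Row: `F₄(q)`, `q ≥ 4` even
-/

set_option autoImplicit false
set_option maxRecDepth 100000

namespace Cfsg.Agent.H430.CfF4Even

open scoped Pointwise
open Cfsg Cfsg.Lie Cfsg.Agent.ChevalleyStructure Cfsg.Agent.ChevalleyStructure.Elts
  Cfsg.Agent.ChevalleyStructure.NConj Cfsg.Agent.ChevalleyStructure.BNChev Cfsg.Agent.S1042
  Cfsg.Agent.Schreier.ChevLocal Cfsg.Agent.H70.AutFix Cfsg.Agent.H70.ChevTab Cfsg.Agent.H70.ChevFix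
  Cfsg.Agent.H430.CfChev Cfsg.Agent.H70.ChevField Cfsg.Agent.H70.PermFix Cfsg.Agent.H430.CfPair
  Cfsg.Agent.H69.OutGF Cfsg.Agent.H70.OutCount Cfsg.Agent.H430.CfGraph
open Cfsg.Agent.H430.CfBase (HasInv Row)

universe u

/-- the pairs of roots `(r, s)`, distances and reflections -/
def tab : List (ℕ × ℕ × ℕ × ℕ) := [
  (47, 44, 0, 0), (47, 40, 1, 0), (46, 44, 1, 3), (47, 39, 2, 1), (46, 40, 2, 3), (45, 44, 2, 2), (47, 38, 3, 2),
  (46, 39, 3, 3), (45, 40, 3, 2), (43, 44, 3, 1), (47, 36, 4, 1), (46, 37, 4, 3), (45, 38, 4, 2), (43, 39, 4, 1),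
  (32, 40, 4, 0), (42, 44, 4, 2), (47, 29, 5, 0), (46, 35, 5, 3), (45, 37, 5, 2), (43, 36, 5, 1), (32, 39, 5, 0),
  (42, 38, 5, 2), (31, 40, 5, 2), (41, 44, 5, 3), (46, 28, 6, 3), (45, 34, 6, 2), (43, 35, 6, 1), (32, 29, 6, 0),
  (42, 36, 6, 2), (31, 38, 6, 2), (41, 37, 6, 3), (26, 39, 6, 1), (30, 40, 6, 3), (45, 27, 7, 2), (43, 33, 7, 1),
  (32, 28, 7, 0), (42, 34, 7, 2), (31, 29, 7, 2), (41, 35, 7, 3), (26, 36, 7, 1), (30, 37, 7, 3), (24, 38, 7, 2),
  (25, 39, 7, 3), (43, 20, 8, 1), (32, 14, 8, 0), (42, 33, 8, 2), (31, 27, 8, 2), (41, 34, 8, 3), (26, 29, 8, 1),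
  (30, 28, 8, 3), (24, 36, 8, 2), (25, 35, 8, 3), (23, 37, 8, 3), (22, 38, 8, 2), (32, 13, 9, 0), (42, 19, 9, 2),
  (31, 14, 9, 2), (41, 33, 9, 3), (26, 20, 9, 1), (30, 27, 9, 3), (24, 29, 9, 2), (25, 28, 9, 3), (23, 35, 9, 3),
  (22, 34, 9, 2), (21, 37, 9, 2), (17, 36, 9, 1), (31, 12, 10, 2), (41, 18, 10, 3), (26, 13, 10, 1),
  (30, 14, 10, 3), (24, 19, 10, 2), (25, 20, 10, 3), (23, 28, 10, 3), (22, 27, 10, 2), (21, 34, 10, 2),
  (17, 33, 10, 1), (16, 35, 10, 1), (6, 29, 10, 0), (26, 10, 11, 1), (30, 11, 11, 3), (24, 12, 11, 2),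
  (25, 13, 11, 3), (23, 18, 11, 3), (22, 19, 11, 2), (21, 27, 11, 2), (17, 20, 11, 1), (16, 33, 11, 1),
  (6, 14, 11, 0), (5, 28, 11, 0), (15, 34, 11, 2), (24, 10, 12, 2), (25, 9, 12, 3), (23, 11, 12, 3),
  (22, 12, 12, 2), (21, 18, 12, 2), (17, 19, 12, 1), (16, 20, 12, 1), (6, 13, 12, 0), (5, 14, 12, 0),
  (15, 33, 12, 2), (4, 27, 12, 2), (23, 9, 13, 3), (22, 8, 13, 2), (21, 11, 13, 2), (17, 10, 13, 1),
  (16, 18, 13, 1), (6, 12, 13, 0), (5, 13, 13, 0), (15, 19, 13, 2), (4, 14, 13, 2), (2, 20, 13, 1),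
  (21, 8, 14, 2), (17, 7, 14, 1), (16, 9, 14, 1), (6, 10, 14, 0), (5, 11, 14, 0), (15, 18, 14, 2),
  (4, 12, 14, 2), (2, 13, 14, 1), (1, 19, 14, 2), (16, 7, 15, 1), (6, 3, 15, 0), (5, 9, 15, 0), (15, 8, 15, 2),
  (4, 11, 15, 2), (2, 10, 15, 1), (1, 12, 15, 2), (0, 18, 15, 3), (5, 3, 16, 0), (15, 7, 16, 2), (4, 8, 16, 2),
  (2, 9, 16, 1), (1, 10, 16, 2), (0, 11, 16, 3), (4, 3, 17, 2), (2, 7, 17, 1), (1, 8, 17, 2), (0, 9, 17, 3),
  (2, 3, 18, 1), (1, 7, 18, 2), (0, 8, 18, 3), (1, 3, 19, 2), (0, 7, 19, 3), (0, 3, 20, 3)]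

theorem chk : chk2 chevF4 tab (47, 44) = true := by decide +kernel

theorem tab_d : (tab.map fun e => e.2.2.1) = (List.range 21).flatMap fun i =>
    List.replicate ([1, 2, 3, 4, 6, 8, 9, 10, 11, 12, 12, 12, 11, 10, 9, 8, 6, 4, 3, 2, 1].getD i 0) i := by
  decide +kernel

theorem even44 : ∀ r < 48, 24 ≤ r → ∀ q ∈ chevF4.commTerms 44 r, q.2.1 % 2 = 0 := by decide +kernel

theorem comm_of_even {D : ChevalleyDatum} (hD : InList D) {F : Type u} [Field F] (h2 : (2 : F) = 0) {s : ℕ}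
    (hs : D.IsPosRoot s) (h : ∀ r, D.IsPosRoot r → ∀ q ∈ D.commTerms s r, q.2.1 % 2 = 0)
    {u : ↥(D.group F)} (hu : u ∈ UU D F) (t : F) :
    u * xe hD s t = xe hD s t * u := by
  have hle : D.posUnipotent F ≤ Subgroup.centralizer ({xG hD s t} : Set (GL D.Idx F)) := by
    refine (posUnipotent_le_iff hD _).2 fun r hr v => ?_
    rw [Subgroup.mem_centralizer_singleton_iff]
    by_cases hrt : r = s
    · rw [hrt, xG_add, xG_add, add_comm]
    · have h1 := UnipProd.xG_comm hD (r := s) (s := r) hs.1 hr.1 hrt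
        (UnipProd.ne_neg_of_pos hD hs hr) t v
      have h3 : wordG hD (D.commWord F s r t v) = 1 := by
        have h4 : ∀ l : List (ℕ × ℤ × ℕ × ℕ), (∀ q ∈ l, q.2.1 % 2 = 0) →
            wordG hD (l.map fun c => (c.1, (c.2.1 : F) * (-t) ^ c.2.2.1 * v ^ c.2.2.2)) = 1 := by
          intro l
          induction l with
          | nil => intro _; rfl
          | cons a l ih =>
            intro hl
            rw [List.map_cons, wordG_cons, ih fun q hq => hl q (List.mem_cons_of_mem _ hq), mul_one]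
            have h5 := hl a List.mem_cons_self
            obtain ⟨k, hk⟩ := Int.dvd_of_emod_eq_zero h5
            show xG hD a.1 ((a.2.1 : F) * (-t) ^ a.2.2.1 * v ^ a.2.2.2) = 1
            rw [hk, Int.cast_mul, Int.cast_ofNat, h2, zero_mul, zero_mul, zero_mul, xG_zero]
        exact h4 _ (h r hr)
      rw [h3, mul_one] at h1
      exact h1
  have h1 := Subgroup.mem_centralizer_singleton_iff.1 (hle hu)
  exact Subtype.ext h1

theorem bfix {F : Type u} [Field F] [Finite F] (h2 : (2 : F) = 0) : BFix chevF4 F (47, 44) := by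
  have hfin : Finite (GL chevF4.Idx F) := inferInstance
  have hfinG : Finite ↥(chevF4.group F) := inferInstance
  intro b hb
  refine ⟨BB_smul_top hF4 hb, ?_⟩
  have hs : chevF4.IsPosRoot 44 := (UnipOrd.isPosRoot_iff hF4 44).2 (by decide)
  have hcomm : ∀ u ∈ UU chevF4 F, ∀ t : F, u * xe hF4 44 t = xe hF4 44 t * u := by
    intro u hu t
    refine comm_of_even hF4 h2 hs (fun r hr => ?_) hu t
    have h3 := (UnipOrd.isPosRoot_iff hF4 r).1 hr
    exact even44 r h3.2 h3.1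
  obtain ⟨u, hu, h, hh, rfl⟩ := Schreier.ChevSch.exists_mul F hF4 hb
  show MulAut.conj (u * h) • XX chevF4 F 44 = XX chevF4 F 44
  rw [map_mul, mul_smul, conj_XX hF4 hh hs.1]
  refine smul_eq_of_maps _ (fun x hx => ?_) (fun x hx => ?_)
  · obtain ⟨t, rfl⟩ := (mem_XX hF4).1 hx
    rw [hcomm u hu, mul_inv_cancel_right]
    exact hx
  · obtain ⟨t, rfl⟩ := (mem_XX hF4).1 hx
    rw [mul_assoc, ← hcomm u hu, inv_mul_cancel_left]
    exact hx

/-- the index of the parabolic subgroup -/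
def idx (q : ℕ) : ℕ := (∑ i ∈ Finset.range 6, q ^ i) * (q ^ 4 + 1) * ∑ i ∈ Finset.range 12, q ^ i

theorem sum_eq (q : ℕ) : (((List.range 21).flatMap fun i =>
    List.replicate ([1, 2, 3, 4, 6, 8, 9, 10, 11, 12, 12, 12, 11, 10, 9, 8, 6, 4, 3, 2, 1].getD i 0) i).map
      fun x => q ^ x).sum = idx q := by
  simp only [show List.range 21 = [0, 1, 2, 3, 4, 5, 6, 7, 8, 9, 10, 11, 12, 13, 14, 15, 16, 17, 18, 19, 20] from rfl,
    List.flatMap_cons, List.flatMap_nil, List.map_append, List.sum_append,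
    List.map_replicate, List.sum_replicate, List.getD_cons_zero, List.getD_cons_succ, smul_eq_mul, List.append_nil]
  simp only [idx, Finset.sum_range_succ, Finset.sum_range_zero]
  ring

theorem index_le {F : Type u} [Field F] [Finite F] (h2 : (2 : F) = 0) :
    (KK chevF4 F (47, 44)).index ≤ idx (Nat.card F) := by
  obtain ⟨h1, h3⟩ := distOk2 chk
  refine (index_KK_le hF4 h1 (bfix h2)).trans (le_of_eq ?_)
  have h4 : ((prs tab).map fun p => Nat.card F ^ dist tab p) = (tab.map fun e => e.2.2.1).map fun x => Nat.card F ^ x := by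
    rw [← h3, List.map_map]; rfl
  rw [h4, tab_d]
  exact sum_eq _

theorem smul_KK {F : Type u} [Field F] [Finite F] {φ : MulAut ↥(chevF4.group F)} {p : ℕ × ℕ}
    (h : (φ • XX chevF4 F p.1 = XX chevF4 F p.1 ∧ φ • XX chevF4 F p.2 = XX chevF4 F p.2) ∨
      (φ • XX chevF4 F p.1 = XX chevF4 F p.2 ∧ φ • XX chevF4 F p.2 = XX chevF4 F p.1)) :
    φ • KK chevF4 F p = KK chevF4 F p := by
  unfold KK
  rw [smul_inf', smul_normalizer, smul_normalizer]
  rcases h with ⟨h1, h3⟩ | ⟨h1, h3⟩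
  · rw [h1, h3]
  · rw [h1, h3, inf_comm]

theorem hasInv {F : Type u} [Field F] [Finite F] (h2 : (2 : F) = 0) :
    HasInv ↥(chevF4.group F) (idx (Nat.card F)) := by
  have hfin : Finite (GL chevF4.Idx F) := inferInstance
  have hfinG : Finite ↥(chevF4.group F) := inferInstance
  refine ⟨KK chevF4 F (47, 44), ?_, fun α => ?_, index_le h2⟩
  · intro h
    apply normalizer_ne_top (F := F) hF4
    exact eq_top_iff.2 (h ▸ inf_le_left)
  · obtain ⟨x, π, -, -, h3, h4⟩ := exists_conj_perm (F := F) hF4 α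
    have hperm : Perm chevF4 F (MulAut.conj x * α) π := ⟨h3, h4⟩
    have hcases := realised_F4 (F := F) ⟨_, hperm⟩
    have hr : ∀ n : Fin chevF4.rank, chevF4.simple n < chevF4.nroots := fun n => simple_lt hF4 n.2
    have e2 : (4 : ℕ) = chevF4.rank := rfl
    have key : (MulAut.conj x * α) • KK chevF4 F (47, 44) = KK chevF4 F (47, 44) := by
      apply smul_KK
      rcases hcases with rfl | rfl
      · left
        constructor
        · exact smul_word hF4 hperm ([1, 0, 3, 2, 1, 2, 3] : List (Fin 4)) (r := chevF4.simple 2)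
            (r' := chevF4.simple 2) (hr (2 : Fin 4)) (hr (2 : Fin 4)) (hperm.pos (2 : Fin 4))
        · exact smul_word hF4 hperm ([1, 2, 1, 3, 2, 1, 0] : List (Fin 4)) (r := chevF4.simple 0)
            (r' := chevF4.simple 0) (hr (0 : Fin 4)) (hr (0 : Fin 4)) (hperm.pos (0 : Fin 4))
      · right
        constructor
        · exact smul_word hF4 hperm ([1, 0, 3, 2, 1, 2, 3] : List (Fin 4)) (r := chevF4.simple 2)
            (r' := chevF4.simple 1) (hr (2 : Fin 4)) (hr (1 : Fin 4)) (hperm.pos (2 : Fin 4))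
        · exact smul_word hF4 hperm ([1, 2, 1, 3, 2, 1, 0] : List (Fin 4)) (r := chevF4.simple 0)
            (r' := chevF4.simple 3) (hr (0 : Fin 4)) (hr (3 : Fin 4)) (hperm.pos (0 : Fin 4))
    refine ⟨x⁻¹, ?_⟩
    have h5 : α • KK chevF4 F (47, 44) = MulAut.conj x⁻¹ • KK chevF4 F (47, 44) := by
      conv_rhs => rw [← key]
      rw [smul_smul, map_inv, inv_mul_cancel_left]
    exact h5

theorem arith {q b : ℕ} (hq : 2 ≤ q) (h : q ^ 24 ≤ (q - 1) ^ 4 * b ^ 2) : idx q ≤ b ^ 2 := by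
  obtain ⟨n, rfl⟩ : ∃ n, q = n + 1 := ⟨q - 1, by omega⟩
  rw [Nat.add_sub_cancel] at h
  have hn : 1 ≤ n := by omega
  have e1 : (∑ i ∈ Finset.range 6, (n + 1) ^ i) * n + 1 = (n + 1) ^ 6 := by
    simp only [Finset.sum_range_succ, Finset.sum_range_zero]; ring
  have e2 : (∑ i ∈ Finset.range 12, (n + 1) ^ i) * n + 1 = (n + 1) ^ 12 := by
    simp only [Finset.sum_range_succ, Finset.sum_range_zero]; ring
  have e3 : ((n + 1) ^ 4 + 1) * n ^ 2 ≤ (n + 1) ^ 6 := by nlinarith [pow_pos (show 0 < n by omega) 2, pow_pos (show 0 < n by omega) 3, pow_pos (show 0 < n by omega) 4, pow_pos (show 0 < n by omega) 5]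
  have h1 : idx (n + 1) * n ^ 4 ≤ (n + 1) ^ 24 := by
    calc idx (n + 1) * n ^ 4 = ((∑ i ∈ Finset.range 6, (n + 1) ^ i) * n) *
          (((n + 1) ^ 4 + 1) * n ^ 2) * ((∑ i ∈ Finset.range 12, (n + 1) ^ i) * n) := by unfold idx; ring
      _ ≤ (n + 1) ^ 6 * (n + 1) ^ 6 * (n + 1) ^ 12 := by
          refine Nat.mul_le_mul (Nat.mul_le_mul (by omega) e3) (by omega)
      _ = (n + 1) ^ 24 := by ring
  have h2 : idx (n + 1) * n ^ 4 ≤ b ^ 2 * n ^ 4 := by
    rw [mul_comm (b ^ 2)]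
    exact h1.trans h
  exact Nat.le_of_mul_le_mul_right h2 (pow_pos (by omega) 4)

theorem row_F4_even {F : Type} [Field F] [Finite F] (h2 : (2 : F) = 0) (h4 : 4 ≤ Nat.card F) :
    Row ↥(chevF4.group F) := by
  have : Fintype F := Fintype.ofFinite F
  have hs : IsSimpleGroup ↥(chevF4.group F) := CfRowChev.simple_of_mem chevF4 (by simp)
  have hchar : CharP F 2 := CharTwo.of_one_ne_zero_of_two_eq_zero one_ne_zero h2
  refine Row.of_hasInv (hasInv h2) fun L hL => ?_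
  rw [Nat.card_eq_fintype_card] at h4 ⊢
  exact arith (by omega) (Cfsg.Agent.H934.HeisF4Even.bound_F4_even hchar h4 hs L hL)

theorem row_F4 {S : Type u} [Group S] (h : Lie.IsoF4 S) : Row S := by
  obtain ⟨F, _, _, e⟩ := h
  refine Row.of_nonempty e ?_
  by_cases h2 : (2 : F) = 0
  · rcases Nat.lt_or_ge (Nat.card F) 4 with hlt | hge
    · have h3 : Nat.card F = 2 := by
        have h4 : 1 < Nat.card F := Finite.one_lt_card
        have h5 : Nat.card F ≠ 3 := by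
          intro h5
          have h6 := FiniteField.cast_card_eq_zero F
          rw [← Nat.card_eq_fintype_card, h5] at h6
          have h7 : (1 : F) = 0 := by
            have : ((3 : ℕ) : F) = 2 + 1 := by norm_num
            rw [this, h2, zero_add] at h6
            exact h6
          exact one_ne_zero h7
        omega
      exact row_F4_two h3
    · exact row_F4_even h2 hge
  · exact CfRowChev.row_F4_odd h2

end Cfsg.Agent.H430.CfF4Even
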